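import Mathlib

/-! Homomorphisms on `H ≀ 2` and Sylow subgroups with a common cover. -/

set_option autoImplicit false

namespace Cfsg.Agent.S2931

/-- Data for a homomorphism on `H ≀ 2`. -/
structure Swap (H : Type) [Group H] (M : Type*) [Monoid M] where
  A : H →* M
  B : H →* M
  T : M
  hT : T * T = 1
  hTA : ∀ h, T * A h = B h * T
  hAB : ∀ h k, A h * B k = B k * A h

variable {H : Type} [Group H]

/-- The swap action. -/
def swapAut (H : Type) [Group H] : Multiplicative (ZMod 2) →* MulAut (H × H) where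
  toFun e := if e.toAdd = 0 then 1 else MulEquiv.prodComm
  map_one' := by simp
  map_mul' a b := by
    have h2 : ∀ z : ZMod 2, z = 0 ∨ z = 1 := by decide
    refine MulEquiv.ext fun p => ?_
    rcases h2 a.toAdd with ha | ha <;> rcases h2 b.toAdd with hb | hb <;>
      simp [toAdd_mul, ha, hb, (show (1 : ZMod 2) + 1 = 0 from rfl)]

/-- `H ≀ 2`. -/
abbrev W (H : Type) [Group H] := (H × H) ⋊[swapAut H] Multiplicative (ZMod 2)

variable {M : Type*} [Monoid M]

/-- The value of the homomorphism on a triple. -/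
def Swap.val (D : Swap H M) (p : H × H) (e : ZMod 2) : M :=
  D.A p.1 * D.B p.2 * (if e = 0 then 1 else D.T)

theorem Swap.hTB (D : Swap H M) (h : H) : D.T * D.B h = D.A h * D.T := by
  calc D.T * D.B h = D.T * D.B h * (D.T * D.T) := by rw [D.hT, mul_one]
    _ = D.T * (D.B h * D.T) * D.T := by simp [mul_assoc]
    _ = D.T * (D.T * D.A h) * D.T := by rw [D.hTA]
    _ = D.A h * D.T := by rw [← mul_assoc, D.hT, one_mul]

/-- The homomorphism on `H ≀ 2`. -/
def Swap.hom (D : Swap H M) : W H →* M where
  toFun w := D.val w.left w.right.toAdd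
  map_one' := by simp [Swap.val]
  map_mul' x y := by
    have h2 : ∀ z : ZMod 2, z = 0 ∨ z = 1 := by decide
    obtain ⟨⟨a, b⟩, e⟩ := x
    obtain ⟨⟨c, d⟩, f⟩ := y
    have l : ∀ (u v z : M), u * v = v * u → u * (v * z) = v * (u * z) := fun u v z h => by
      rw [← mul_assoc, h, mul_assoc]
    simp only [Swap.val, SemidirectProduct.mul_left, SemidirectProduct.mul_right, toAdd_mul]
    rcases h2 e.toAdd with he | he
    · simp only [swapAut, MonoidHom.coe_mk, OneHom.coe_mk, he, if_true, MulAut.one_apply, Prod.mk_mul_mk, map_mul,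
        zero_add, mul_one, mul_assoc]
      rw [l (D.B b) (D.A c) _ (D.hAB c b).symm]
    · simp only [swapAut, MonoidHom.coe_mk, OneHom.coe_mk, he, one_ne_zero, if_false, MulEquiv.coe_prodComm,
        Prod.swap_prod_mk, Prod.mk_mul_mk, map_mul]
      have key : D.T * (D.A c * D.B d) = D.A d * D.B c * D.T := by
        rw [← mul_assoc, D.hTA, mul_assoc, D.hTB, ← mul_assoc, (D.hAB d c).symm]
      have : D.A a * D.B b * D.T * (D.A c * D.B d * if f.toAdd = 0 then 1 else D.T) =
          D.A a * D.A d * (D.B b * D.B c) * (D.T * if f.toAdd = 0 then 1 else D.T) := by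
        calc _ = D.A a * D.B b * (D.T * (D.A c * D.B d)) * (if f.toAdd = 0 then 1 else D.T) := by
              simp only [mul_assoc]
          _ = _ := by
              rw [key]
              simp only [mul_assoc]
              rw [l (D.B b) (D.A d) _ (D.hAB d b).symm]
      rw [this]
      rcases h2 f.toAdd with hf | hf
      · simp [hf]
      · simp [hf, D.hT, (show (1 : ZMod 2) + 1 = 0 from rfl)]

theorem Swap.hom_mk (D : Swap H M) (a b : H) (e : ZMod 2) :
    D.hom ⟨(a, b), Multiplicative.ofAdd e⟩ = D.val (a, b) e := rfl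

theorem forall_W {p : W H → Prop} :
    (∀ w, p w) ↔ ∀ a b : H, ∀ e : ZMod 2, p ⟨(a, b), Multiplicative.ofAdd e⟩ :=
  ⟨fun h _ _ _ => h _, fun h w => by obtain ⟨⟨a, b⟩, e⟩ := w; exact h a b e.toAdd⟩

instance [Finite H] : Finite (W H) := Finite.of_equiv _ SemidirectProduct.equivProd.symm

theorem card_W [Fintype H] : Nat.card (W H) = 2 * Fintype.card H ^ 2 := by
  rw [SemidirectProduct.card, Nat.card_prod, Nat.card_eq_fintype_card,
    Nat.card_congr Multiplicative.toAdd, Nat.card_zmod]
  ring

/-- Two Sylow subgroups with a common cover are isomorphic. -/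
theorem sylow_iso {U G₁ G₂ : Type*} [Group U] [Finite U] [Group G₁] [Finite G₁] [Group G₂] [Finite G₂]
    (f : U →* G₁) (g : U →* G₂) (hker : ∀ u, f u = 1 ↔ g u = 1)
    (h1 : Nat.card f.range = 2 ^ (Nat.card G₁).factorization 2)
    (h2 : Nat.card g.range = 2 ^ (Nat.card G₂).factorization 2) (P : Sylow 2 G₁) (Q : Sylow 2 G₂) :
    Nonempty (↥(P : Subgroup G₁) ≃* ↥(Q : Subgroup G₂)) := by
  haveI : Fact (Nat.Prime 2) := ⟨Nat.prime_two⟩
  have hk : f.ker = g.ker := Subgroup.ext fun u => by simp only [MonoidHom.mem_ker]; exact hker u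
  exact ⟨(P.equiv (Sylow.ofCard f.range h1)).trans ((QuotientGroup.quotientKerEquivRange f).symm.trans
    ((QuotientGroup.quotientMulEquivOfEq hk).trans ((QuotientGroup.quotientKerEquivRange g).trans
      ((Sylow.ofCard g.range h2).equiv Q))))⟩

/-- Size of a range from the kernel. -/
theorem card_range {U G : Type*} [Group U] [Finite U] [Group G] (f : U →* G) {S : Set U}
    (hS : ∀ u, f u = 1 ↔ u ∈ S) : S.ncard * Nat.card f.range = Nat.card U := by
  rw [← f.ker.card_mul_index, Subgroup.index_ker, ← Nat.card_coe_set_eq]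
  congr 1
  exact Nat.card_congr (Equiv.subtypeEquivRight fun u => ((MonoidHom.mem_ker (f := f)).trans (hS u)).symm)

theorem twoPart (k m : ℕ) (hm : ¬ 2 ∣ m) : 2 ^ ((2 ^ k * m).factorization 2) = 2 ^ k := by
  rw [Nat.factorization_mul (by positivity) (fun h => hm (by rw [h]; exact dvd_zero 2)), Finsupp.add_apply,
    Nat.Prime.factorization_pow Nat.prime_two, Finsupp.single_eq_same, Nat.factorization_eq_zero_of_not_dvd hm,
    add_zero]

end Cfsg.Agent.S2931
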